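import Cfsg.Agent.H347.HX.G23.Main

/-!
# `G₂(3)`: centralizers of elements of order 2, 7, 13 (helper347, for S5745)
-/

set_option autoImplicit false
set_option maxRecDepth 100000
set_option Elab.async false

namespace Cfsg.Agent.H347.EPX.GThree

open Subgroup Cfsg.Agent.H347.HX Cfsg.Agent.H347.HX.G23

theorem alb_of {n : ℕ} {P : ℕ → Bool} (h : ∀ k < n, P k = true) : alb n P = true := by
  induction n with
  | zero => rfl
  | succ m ih =>
    have h1 : alb (m + 1) P = bif P m then alb m P else false := rfl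
    rw [h1, h m (Nat.lt_succ_self m), cond_true]
    exact ih fun k hk => h k (Nat.lt_succ_of_lt hk)

theorem pow_ne {X : ℕ → ℕ} {x : A} (h : Rp X x) {k : ℕ} (hk : (alb 364 fun q => Nat.beq (it X k q) q) = false) :
    x ^ k ≠ 1 := by
  intro e
  have h1 : (alb 364 fun q => Nat.beq (it X k q) q) = true := by
    refine alb_of fun q hq => ?_
    have h2 := h.it k ⟨q, hq⟩
    rw [e] at h2
    have h3 : q = it X k q := h2
    rw [← h3]
    exact Nat.beq_refl q
  rw [hk] at h1
  cases h1

/-- conjugate elements have centralizers of the same order -/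
theorem card_cent {G : Type*} [Group G] [Finite G] {x y : G} (h : IsConj x y) :
    Nat.card ↥(centralizer ({x} : Set G)) = Nat.card ↥(centralizer ({y} : Set G)) := by
  have h1 := Cfsg.Agent.H235.Ore.ClassList.card_class x
  have h2 := Cfsg.Agent.H235.Ore.ClassList.card_class y
  have h3 : Nat.card {z : G // IsConj x z} = Nat.card {z : G // IsConj y z} :=
    Nat.card_congr (Equiv.subtypeEquivRight fun z => ⟨fun h' => h.symm.trans h', fun h' => h.trans h'⟩)
  have h4 : 0 < Nat.card {z : G // IsConj x z} := by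
    have : Nonempty {z : G // IsConj x z} := ⟨⟨x, IsConj.refl x⟩⟩
    exact Nat.card_pos
  rw [← h2, h3] at h1
  rw [h3] at h4
  exact Nat.eq_of_mul_eq_mul_left h4 h1

theorem wr_nil : ev s (wr []) = 1 := by
  rw [wr_eq, ev_nil, inv_one, mul_one, mul_one, mul_inv_cancel]

/-- what is needed of `G₂(3)` -/
structure Data (G : Type*) [Group G] : Prop where
  card : Nat.card G = 4245696
  two : ∀ x : G, orderOf x = 2 → Nat.card ↥(centralizer ({x} : Set G)) ≤ 576
  seven : ∀ x : G, orderOf x = 7 → Nat.card ↥(centralizer ({x} : Set G)) ≤ 7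
  thirteen : ∀ x : G, orderOf x = 13 → Nat.card ↥(centralizer ({x} : Set G)) ≤ 13
  fus : ∀ x : G, orderOf x = 13 → ¬ IsConj x (x ^ 2)

theorem Data.congr {G G' : Type*} [Group G] [Group G'] (h : Data G) (e : G ≃* G') : Data G' := by
  have hc : ∀ x : G', Nat.card ↥(centralizer ({x} : Set G')) = Nat.card ↥(centralizer ({e.symm x} : Set G)) := by
    intro x
    refine Nat.card_congr ⟨fun y => ⟨e.symm y, ?_⟩, fun y => ⟨e y, ?_⟩, fun y => ?_, fun y => ?_⟩
    · have h1 := mem_centralizer_singleton_iff.1 y.2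
      rw [mem_centralizer_singleton_iff, ← map_mul, ← map_mul, h1]
    · have h1 := mem_centralizer_singleton_iff.1 y.2
      rw [mem_centralizer_singleton_iff]
      apply e.symm.injective
      rw [map_mul, map_mul, MulEquiv.symm_apply_apply, h1]
    · exact Subtype.ext (e.apply_symm_apply _)
    · exact Subtype.ext (e.symm_apply_apply _)
  have ho : ∀ x : G', orderOf (e.symm x) = orderOf x := fun x => e.symm.orderOf_eq x
  refine ⟨?_, fun x hx => ?_, fun x hx => ?_, fun x hx => ?_, fun x hx hcon => ?_⟩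
  · rw [← h.card, Nat.card_congr e.toEquiv]
  · rw [hc]; exact h.two _ (by rw [ho, hx])
  · rw [hc]; exact h.seven _ (by rw [ho, hx])
  · rw [hc]; exact h.thirteen _ (by rw [ho, hx])
  · refine h.fus (e.symm x) (by rw [ho, hx]) ?_
    rw [← map_pow]
    obtain ⟨c, hc'⟩ := isConj_iff.1 hcon
    exact isConj_iff.2 ⟨e.symm c, by rw [← hc', map_mul, map_mul, map_inv]⟩

theorem two_lst : ∀ p ∈ lst, p.1 ^ 2 = 1 → p.1 = 1 ∨ bd p.2.l ≤ 576 := by
  intro p hp
  have hR := lst_Rp p hp
  simp only [lst, List.mem_cons, List.not_mem_nil, or_false] at hp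
  rcases hp with rfl | rfl | rfl | rfl | rfl | rfl | rfl | rfl | rfl | rfl | rfl | rfl | rfl | rfl | rfl | rfl | rfl | rfl | rfl | rfl | rfl | rfl | rfl
  · exact fun _ => Or.inl wr_nil
  · exact fun _ => Or.inr (by decide +kernel)
  all_goals exact fun h => absurd h (pow_ne hR (by decide +kernel))

theorem seven_lst : ∀ p ∈ lst, p.1 ^ 7 = 1 → p.1 = 1 ∨ bd p.2.l ≤ 7 := by
  intro p hp
  have hR := lst_Rp p hp
  simp only [lst, List.mem_cons, List.not_mem_nil, or_false] at hp
  rcases hp with rfl | rfl | rfl | rfl | rfl | rfl | rfl | rfl | rfl | rfl | rfl | rfl | rfl | rfl | rfl | rfl | rfl | rfl | rfl | rfl | rfl | rfl | rfl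
  · exact fun _ => Or.inl wr_nil
  on_goal 13 => exact fun _ => Or.inr (by decide +kernel)
  all_goals exact fun h => absurd h (pow_ne hR (by decide +kernel))

theorem thirteen_lst : ∀ p ∈ lst, p.1 ^ 13 = 1 → p.1 = 1 ∨ (bd p.2.l ≤ 13 ∧ ¬ IsConj p.1 (p.1 ^ 2)) := by
  intro p hp
  have hR := lst_Rp p hp
  simp only [lst, List.mem_cons, List.not_mem_nil, or_false] at hp
  rcases hp with rfl | rfl | rfl | rfl | rfl | rfl | rfl | rfl | rfl | rfl | rfl | rfl | rfl | rfl | rfl | rfl | rfl | rfl | rfl | rfl | rfl | rfl | rfl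
  · exact fun _ => Or.inl wr_nil
  on_goal 22 =>
    refine fun _ => Or.inr ⟨by decide +kernel, fun hc => ?_⟩
    have h1 := cn_isConj ⟨[(1, 1), (5, 2)], [], []⟩ hc
    rw [cn_eq hR, cn_eq (X := it c22.X 2) (fun q => hR.it 2 q)] at h1
    revert h1
    decide +kernel
  on_goal 21 =>
    refine fun _ => Or.inr ⟨by decide +kernel, fun hc => ?_⟩
    have h1 := cn_isConj ⟨[(1, 1), (5, 2)], [], []⟩ hc
    rw [cn_eq hR, cn_eq (X := it c21.X 2) (fun q => hR.it 2 q)] at h1
    revert h1
    decide +kernel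
  all_goals exact fun h => absurd h (pow_ne hR (by decide +kernel))

theorem data_A : Data A := by
  have key : ∀ (x : A) (k : ℕ), orderOf x = k → k ≠ 1 → ∃ p ∈ lst, IsConj p.1 x ∧ p.1 ^ k = 1 ∧ p.1 ≠ 1 ∧
      Nat.card ↥(centralizer ({x} : Set A)) ≤ bd p.2.l := by
    intro x k hx hk
    obtain ⟨p, hp, h⟩ := complete hbase ts lst lst_Rp lst_run lst_key lst_sum x
    refine ⟨p, hp, h, ?_, ?_, ?_⟩
    · obtain ⟨c, rfl⟩ := isConj_iff.1 h
      have h1 := pow_orderOf_eq_one (c * p.1 * c⁻¹)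
      rw [hx, conj_pow] at h1
      have h2 : p.1 ^ k = c⁻¹ * (c * p.1 ^ k * c⁻¹) * c := by group
      rw [h2, h1]; group
    · intro h1
      rw [h1, isConj_one_right] at h
      rw [h, orderOf_one] at hx
      exact hk hx.symm
    · rw [← card_cent h]
      exact card_le (lst_Rp p hp) hbase (lst_run p hp)
  refine ⟨card_A, fun x hx => ?_, fun x hx => ?_, fun x hx => ?_, fun x hx hc => ?_⟩
  · obtain ⟨p, hp, -, h2, h3, h4⟩ := key x 2 hx (by norm_num)
    exact h4.trans ((two_lst p hp h2).resolve_left h3)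
  · obtain ⟨p, hp, -, h2, h3, h4⟩ := key x 7 hx (by norm_num)
    exact h4.trans ((seven_lst p hp h2).resolve_left h3)
  · obtain ⟨p, hp, -, h2, h3, h4⟩ := key x 13 hx (by norm_num)
    exact h4.trans ((thirteen_lst p hp h2).resolve_left h3).1
  · obtain ⟨p, hp, h1, h2, h3, -⟩ := key x 13 hx (by norm_num)
    refine ((thirteen_lst p hp h2).resolve_left h3).2 ?_
    have h5 : IsConj (p.1 ^ 2) (x ^ 2) := by
      obtain ⟨c, rfl⟩ := isConj_iff.1 h1
      rw [isConj_iff]
      exact ⟨c, by rw [conj_pow]⟩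
    exact h1.trans (hc.trans h5.symm)

/-- **The data of `G₂(3)`** -/
theorem data_chev (F : Type) [Field F] [Fintype F] (hF : Fintype.card F = 3) : Data ↥(Lie.chevG2.group F) := by
  classical
  have σ : ZMod 3 ≃+* F := FiniteField.ringEquivOfCardEq (by rw [ZMod.card, hF])
  obtain ⟨e⟩ := iso.2.2
  exact data_A.congr (e.trans (ChevalleyStructure.FieldIso.groupEquiv Lie.chevG2 σ))

end Cfsg.Agent.H347.EPX.GThree
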